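import Cfsg.Agent.H555.TwoSp.SpSeven
import Cfsg.Agent.H771.KSp6

/-!
# No element of order three of `Sp₆(2)` commutes with an element of order seven (helper633)
-/

set_option autoImplicit false

namespace Cfsg.Agent.H633.Dl.SpSeven3

open Subgroup Cfsg.Agent.SporRec.TwoSp6.Sp Cfsg.Agent.H555.TwoSp.SpSeven Cfsg.Agent.H771.KSp6

/-- fixed points of a map with `f³ = 1` -/
theorem card_modEq3 {α : Type*} [Finite α] {f : α → α} (hf : ∀ a, f (f (f a)) = a) :
    Nat.card α ≡ Nat.card {a // f a = a} [MOD 3] := by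
  classical
  let _ : Fintype α := Fintype.ofFinite α
  have : Fact (Nat.Prime 3) := ⟨by norm_num⟩
  let F : Function.End α := f
  have h1 : F ^ 3 ^ 1 = 1 := by
    funext a
    exact hf a
  have h2 := Equiv.Perm.card_fixedPoints_modEq h1
  rw [← Nat.card_eq_fintype_card, ← Nat.card_eq_fintype_card] at h2
  exact h2

section

variable {g : S} (hg : orderOf g = 7)
include hg

/-- an element of order three is trivial on an invariant subgroup of order 1 or 8 -/
theorem triv3 {h : S} (hh : h * h * h = 1) (hc : g * h = h * g) (W : AddSubgroup V) (hW : ∀ w ∈ W, na g w ∈ W)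
    (hW2 : ∀ w ∈ W, na h w ∈ W) (h64 : Nat.card W ≠ 64) : ∀ w ∈ W, na h w = w := by
  have hcv : ∀ v, na g (na h v) = na h (na g v) := by
    intro v
    rw [na_apply, na_apply, na_apply, na_apply, ← act_mul, ← act_mul, hc]
  have hhv : ∀ v, na h (na h (na h v)) = v := by
    intro v
    rw [na_apply, na_apply, na_apply, ← act_mul, ← act_mul, hh, act_one]
  let W' : AddSubgroup V :=
    { carrier := {w | w ∈ W ∧ na h w = w}
      add_mem' := fun {a b} ha hb => ⟨W.add_mem ha.1 hb.1, by rw [map_add, ha.2, hb.2]⟩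
      zero_mem' := ⟨W.zero_mem, map_zero _⟩
      neg_mem' := fun {a} ha => ⟨W.neg_mem ha.1, by rw [map_neg, ha.2]⟩ }
  have hW'W : W' ≤ W := fun w hw => hw.1
  have hW'g : ∀ w ∈ W', na g w ∈ W' := fun w hw => ⟨hW w hw.1, by rw [← hcv, hw.2]⟩
  have hle : Nat.card W' ≤ Nat.card W := AddSubgroup.card_le_of_le hW'W
  intro w hw
  by_cases hw0 : w = 0
  · rw [hw0, map_zero]
  have hW1 : Nat.card W ≠ 1 := by
    intro h1
    have h2 : W = ⊥ := AddSubgroup.card_eq_one.mp h1
    rw [h2, AddSubgroup.mem_bot] at hw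
    exact hw0 hw
  have hne : Nat.card W' ≠ 1 := by
    intro h1
    have h2 : W' = ⊥ := AddSubgroup.card_eq_one.mp h1
    have h3 := card_modEq3 (α := W) (f := fun w => ⟨na h w, hW2 w w.2⟩) (fun w => Subtype.ext (hhv w))
    have h4 : Nat.card {w : W // (⟨na h w, hW2 w w.2⟩ : W) = w} = 1 := by
      rw [Nat.card_eq_one_iff_unique]
      refine ⟨⟨fun a b => ?_⟩, ⟨⟨0, Subtype.ext (map_zero _)⟩⟩⟩
      have key : ∀ a : {w : W // (⟨na h w, hW2 w w.2⟩ : W) = w}, (a.1 : V) = 0 := by
        intro a
        have h5 : (a.1 : V) ∈ W' := ⟨a.1.2, congrArg Subtype.val a.2⟩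
        rw [h2, AddSubgroup.mem_bot] at h5
        exact h5
      exact Subtype.ext (Subtype.ext ((key a).trans (key b).symm))
    rw [h4] at h3
    rcases card_inv hg W hW with h | h | h
    · exact hW1 h
    · rw [h] at h3
      revert h3
      decide
    · exact h64 h
  have h8 : Nat.card W' = Nat.card W := by
    rcases card_inv hg W hW with h | h | h <;> rcases card_inv hg W' hW'g with h' | h' | h' <;> omega
  have h9 : W' = W := AddSubgroup.eq_of_le_of_card_ge hW'W (by omega)
  rw [← h9] at hw
  exact hw.2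

/-- **No element of order three commutes with an element of order seven.** -/
theorem no_three {h : S} (hh : h * h * h = 1) (hc : g * h = h * g) : h = 1 := by
  have hcv : ∀ v, na g (na h v) = na h (na g v) := by
    intro v
    rw [na_apply, na_apply, na_apply, na_apply, ← act_mul, ← act_mul, hc]
  have hA : ∀ w ∈ (opA g).ker, na h w = w := by
    refine triv3 hg hh hc _ (fun w hw => A_mem hg w hw) (fun w hw => ?_) (fun h64 => ?_)
    · have h1 : opA g w = 0 := hw
      change opA g (na h w) = 0
      rw [opA_apply] at h1 ⊢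
      rw [hcv, hcv, hcv, ← map_add, ← map_add, h1, map_zero]
    · exact not_A hg fun v => eq_top_of_card hg h64 v
  have hB : ∀ w ∈ (opB g).ker, na h w = w := by
    refine triv3 hg hh hc _ (fun w hw => B_mem hg w hw) (fun w hw => ?_) (fun h64 => ?_)
    · have h1 : opB g w = 0 := hw
      change opB g (na h w) = 0
      rw [opB_apply] at h1 ⊢
      rw [hcv, hcv, hcv, ← map_add, ← map_add, h1, map_zero]
    · exact not_B hg fun v => eq_top_of_card hg h64 v
  apply act_ext
  intro v
  rw [act_one]
  change na h v = v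
  have h1 := bezout g v
  have h2 : na g (opA g v) ∈ (opB g).ker := B_mem hg _ (BA hg v)
  have h3 : na g (opB g v) + opB g v ∈ (opA g).ker := by
    have h4 : opB g v ∈ (opA g).ker := AB hg v
    exact (opA g).ker.add_mem (A_mem hg _ h4) h4
  rw [h1, map_add, hB _ h2, hA _ h3]

end

/-! ### A Frobenius group of order 21 -/

/-- the element of order seven -/
def wc : List (Fin 7) := [0, 3, 5, 2, 4, 6]

/-- the element of order three -/
def w3 : List (Fin 7) := [4, 5, 3, 4, 0, 2, 3, 0, 2, 0]

theorem run_append (v w : List (Fin 7)) (c : ℕ) : run (v ++ w) c = run v (run w c) := by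
  induction v with
  | nil => rfl
  | cons i v ih => exact congrArg _ ih

theorem ev_append' (v w : List (Fin 7)) : ev (v ++ w) = ev v * ev w := by
  unfold ev
  rw [List.map_append, List.prod_append]

theorem w3_conj : ev w3 * ev wc = ev wc * ev wc * ev w3 := by
  rw [← ev_append', ← ev_append', ← ev_append']
  apply act_ext
  intro x
  obtain ⟨c, hc, rfl⟩ := exists_enc x
  rw [act_ev, act_ev]
  have key : ((List.range 64).all fun c => Nat.beq (run (w3 ++ wc) c) (run (wc ++ wc ++ w3) c)) = true := by
    decide +kernel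
  rw [List.all_eq_true] at key
  rw [Nat.eq_of_beq_eq_true (key c (List.mem_range.2 hc))]

end Cfsg.Agent.H633.Dl.SpSeven3
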